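import Mathlib
import Cfsg.Agent.H393.Derange
set_option linter.all false

/-!
# Counting fixed points in transitive and 2-transitive groups

`fx g` is the number of fixed points of `g`.  The Cameron–Cohen count and its refinement for
2-transitive groups.
-/

set_option autoImplicit false

namespace Cfsg.Agent.H895

open MulAction Finset

section

variable {G Ω : Type*} [Group G] [Fintype G] [MulAction G Ω] [Fintype Ω]

open Classical in
/-- The finset of fixed points. -/
noncomputable def fixF (Ω : Type*) [MulAction G Ω] [Fintype Ω] (g : G) : Finset Ω :=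
  univ.filter (fun ω => g • ω = ω)

omit [Fintype G] in
theorem mem_fixF {g : G} {ω : Ω} : ω ∈ fixF Ω g ↔ g • ω = ω := by
  simp [fixF]

omit [Fintype G] in
theorem natCard_fixedBy (g : G) : Nat.card (fixedBy Ω g) = (fixF Ω g).card := by
  classical
  rw [Nat.card_eq_fintype_card, fixF, ← Fintype.card_subtype]
  exact Fintype.card_congr (Equiv.refl _)

omit [Fintype G] in
theorem fixF_conj (g k : G) : (fixF Ω (k * g * k⁻¹)).card = (fixF Ω g).card := by
  classical
  refine (Finset.card_bij' (fun ω _ => k • ω) (fun ω _ => k⁻¹ • ω) ?_ ?_ ?_ ?_).symm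
  · intro ω hω
    rw [mem_fixF] at hω ⊢
    rw [smul_smul, mul_assoc, inv_mul_cancel, mul_one, mul_smul, hω]
  · intro ω hω
    rw [mem_fixF] at hω ⊢
    rw [smul_smul, eq_inv_smul_iff, smul_smul, ← mul_assoc]
    exact hω
  · intro ω _; simp
  · intro ω _; simp

theorem natCard_derange : Nat.card {g : G // ∀ ω : Ω, g • ω ≠ ω} =
    (univ.filter (fun g : G => (fixF Ω g).card = 0)).card := by
  classical
  rw [Nat.card_eq_fintype_card, Fintype.card_subtype]
  congr 1
  ext g
  simp [fixF, Finset.filter_eq_empty_iff]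

/-- Burnside on points. -/
theorem sum_fix (htr : IsPretransitive G Ω) [Nonempty Ω] :
    ∑ g : G, (fixF Ω g).card = Nat.card G := by
  have h := H393.burnside_natCard G Ω
  rw [H393.card_orbits_eq_one G Ω htr, one_mul] at h
  simpa only [natCard_fixedBy] using h

theorem sum_fix_sq (G Ω : Type*) [Group G] [Fintype G] [MulAction G Ω] [Fintype Ω] :
    ∑ g : G, (fixF Ω g).card ^ 2 = Nat.card (orbitRel.Quotient G (Ω × Ω)) * Nat.card G := by
  have h := H393.burnside_natCard G (Ω × Ω)
  have hfix : ∀ g : G, Nat.card (fixedBy (Ω × Ω) g) = (fixF Ω g).card ^ 2 := by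
    intro g
    rw [← natCard_fixedBy, pow_two, ← Nat.card_prod]
    refine Nat.card_congr ⟨fun x => (⟨x.1.1, congrArg Prod.fst x.2⟩, ⟨x.1.2, congrArg Prod.snd x.2⟩),
      fun x => ⟨(x.1.1, x.2.1), Prod.ext x.1.2 x.2.2⟩, fun x => rfl, fun x => rfl⟩
  simpa only [hfix] using h

omit [Fintype G] in
theorem fixF_card_le (g : G) : (fixF Ω g).card ≤ Fintype.card Ω := Finset.card_le_univ _

/-- The Cameron–Cohen identity. -/
theorem cameron_cohen (htr : IsPretransitive G Ω) [Nonempty Ω] :
    (Fintype.card Ω : ℤ) * (univ.filter (fun g : G => (fixF Ω g).card = 0)).card =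
      ((Nat.card (orbitRel.Quotient G (Ω × Ω)) : ℤ) - 1) * Nat.card G +
      ∑ g ∈ univ.filter (fun g : G => ¬ (fixF Ω g).card = 0),
        (((fixF Ω g).card : ℤ) - 1) * ((Fintype.card Ω : ℤ) - (fixF Ω g).card) := by
  have h1 : ∑ g : G, ((fixF Ω g).card : ℤ) = Nat.card G := by exact_mod_cast sum_fix htr
  have h2 : ∑ g : G, ((fixF Ω g).card : ℤ) ^ 2 =
      Nat.card (orbitRel.Quotient G (Ω × Ω)) * Nat.card G := by exact_mod_cast sum_fix_sq G Ω
  have h3 : ∑ g : G, (((fixF Ω g).card : ℤ) - 1) * (((Fintype.card Ω : ℤ) - (fixF Ω g).card)) =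
      - (((Nat.card (orbitRel.Quotient G (Ω × Ω)) : ℤ) - 1) * Nat.card G) := by
    have e : ∀ g : G, (((fixF Ω g).card : ℤ) - 1) * (((Fintype.card Ω : ℤ) - (fixF Ω g).card)) =
      ((Fintype.card Ω : ℤ) + 1) * (fixF Ω g).card - ((fixF Ω g).card : ℤ) ^ 2
        - (Fintype.card Ω : ℤ) := by
      intro g; ring
    rw [Finset.sum_congr rfl (fun g _ => e g), Finset.sum_sub_distrib, Finset.sum_sub_distrib,
      ← Finset.mul_sum, h1, h2, Finset.sum_const, Finset.card_univ,
      ← Nat.card_eq_fintype_card (α := G)]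
    simp only [nsmul_eq_mul]
    ring
  have h4 := Finset.sum_filter_add_sum_filter_not (Finset.univ : Finset G)
    (fun g => (fixF Ω g).card = 0)
    (fun g => (((fixF Ω g).card : ℤ) - 1) * (((Fintype.card Ω : ℤ) - (fixF Ω g).card)))
  rw [h3] at h4
  have h5 : ∑ g ∈ univ.filter (fun g : G => (fixF Ω g).card = 0),
      (((fixF Ω g).card : ℤ) - 1) * (((Fintype.card Ω : ℤ) - (fixF Ω g).card)) =
      - ((Fintype.card Ω : ℤ) * (univ.filter (fun g : G => (fixF Ω g).card = 0)).card) := by
    rw [Finset.sum_congr rfl (g := fun _ => - (Fintype.card Ω : ℤ))]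
    · rw [Finset.sum_const, nsmul_eq_mul]; ring
    · intro g hg
      rw [Finset.mem_filter] at hg
      rw [hg.2]; simp
  rw [h5] at h4
  linarith

end

end Cfsg.Agent.H895
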